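import Groth.Prelude.Def_HTor
import Groth.Agent.PerfA.HypAdj
import Groth.Agent.PerfC.RpushTrunc
import Groth.Agent.CohtopB.LeftRes

/-!
# `RΓ(X, -)` with values in `D(A)`: hypercohomological description and uniform bounds

* `rgammaIso f : HTor.RΓA f ≅ RDer3.TR (HTor.globalSectionsA f)`;
* `isZero_HD_of_forall`: if `Hom(j_!O_X[-m], K) = 0` then `H^m(RΓ(X, K)) = 0`;
* `eq_zero_of_cover`: on a separated scheme, for an open covered by `N + 1` affines the hypercohomology of
  `K ∈ D_QCoh^{≤ a}` vanishes in degrees `> a + N`;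
* `isLE_RΓA`: the corresponding bound for `RΓA f`;
* `exists_free_rep`: objects of `D^{≤ n}(A)` are represented by complexes of free modules vanishing above `n`.
-/

set_option autoImplicit false

universe u

open CategoryTheory CategoryTheory.Limits AlgebraicGeometry Opposite TopologicalSpace
open Groth.Agent.PerfA.ExtZero Groth.Agent.PerfA.Hyp0 Groth.Agent.PerfA.Hyp1 Groth.Agent.PerfA.Hyp2
open Groth.Agent.PerfA.HypBound

attribute [local instance] HasDerivedCategory.standard

namespace Groth.Agent.Htor.H246.RGammaBound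

open Groth.Agent.Etrest

section RGamma

variable {A : Type u} [CommRing A] {X : Scheme.{u}} (f : X ⟶ Spec (CommRingCat.of A))

/-- The triangulated model of `RΓA f`. -/
noncomputable def RG : DCoh.D X ⥤ Dual.D A :=
  haveI := PerfC.RpushTrunc.hasKInj X
  RDer3.TR (HTor.globalSectionsA f)

noncomputable instance : (RG f).CommShift ℤ := by
  have := PerfC.RpushTrunc.hasKInj X
  dsimp only [RG]
  infer_instance

instance : (RG f).IsTriangulated := by
  have := PerfC.RpushTrunc.hasKInj X
  exact inferInstanceAs (RDer3.TR (HTor.globalSectionsA f)).IsTriangulated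

/-- `RΓA f ≅ RG f`. -/
noncomputable def rgammaIso [HTor.HasRΓA f] : HTor.RΓA f ≅ RG f :=
  haveI := PerfC.RpushTrunc.hasKInj X
  RDer3.TRIso (HTor.globalSectionsA f)

/-- `RΓA f` always exists. -/
theorem hasRΓA : HTor.HasRΓA f :=
  haveI := PerfC.RpushTrunc.hasKInj X
  RDer3.hasRightDerivedFunctor (HTor.globalSectionsA f)

/-- For a K-injective complex `I`, `RΓ(X, I)` is computed by `Γ(X, I)`. -/
noncomputable def rgInj [HTor.HasRΓA f] (I : CochainComplex X.Modules ℤ) (hI : I.IsKInjective) :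
    (HTor.RΓA f).obj (DCoh.toD X I) ≅
      DRing.toD (((HTor.globalSectionsA f).mapHomologicalComplex (ComplexShape.up ℤ)).obj I) :=
  haveI := PerfC.RpushTrunc.hasKInj X
  haveI := RDer3.isIso_unitQ_of_isKInjective (HTor.globalSectionsA f) I hI
  (rgammaIso f).app (DCoh.toD X I) ≪≫ (asIso ((RDer3.unitQ (HTor.globalSectionsA f)).app I)).symm

omit A in
/-- If `Hom(j_!O_U[-m], I) = 0` then `Γ(U, I)` is exact in degree `m`, for `I` K-injective. -/
theorem exists_of_app_eq_zero (I : CochainComplex X.Modules ℤ) (hI : I.IsKInjective) (U : X.Opens) (m : ℤ)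
    (h : ∀ φ : P m U ⟶ DCoh.toD X I, φ = 0) (x : Γ(I.X m, U)) (hx : (I.d m (m + 1)).app U x = 0) :
    ∃ y : Γ(I.X (m - 1), U), (I.d (m - 1) m).app U y = x := by
  have hx' : desc x ≫ I.d m (m + 1) = 0 := by
    rw [desc_comp, hx, desc_zero]
  obtain ⟨y, hy⟩ := exists_of_ofCocycle_eq_zero (n := m - 1) (by lia) (desc x) hx' (h _)
  obtain ⟨y', rfl⟩ := desc_surjective y
  rw [desc_comp] at hy
  exact ⟨y', desc_injective hy⟩

/-- If `Hom(j_!O_X[-m], I) = 0` then `Γ(X, I)` is exact in degree `m`, for `I` K-injective. -/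
theorem exactAt_globalSectionsA (I : CochainComplex X.Modules ℤ) (hI : I.IsKInjective) (m : ℤ)
    (h : ∀ φ : P m (⊤ : X.Opens) ⟶ DCoh.toD X I, φ = 0) :
    (((HTor.globalSectionsA f).mapHomologicalComplex (ComplexShape.up ℤ)).obj I).ExactAt m := by
  rw [HomologicalComplex.exactAt_iff' _ (m - 1) m (m + 1) (by simp) (by simp),
    ShortComplex.moduleCat_exact_iff]
  intro x hx
  exact exists_of_app_eq_zero I hI ⊤ m h x hx

/-- If `H^m(X, K) = Hom(j_!O_X[-m], K) = 0` then `H^m(RΓ(X, K)) = 0`. -/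
theorem isZero_HD_of_forall [HTor.HasRΓA f] (K : DCoh.D X) (m : ℤ)
    (h : ∀ φ : P m (⊤ : X.Opens) ⟶ K, φ = 0) :
    IsZero ((DerivedCategory.homologyFunctor (ModuleCat.{u} A) m).obj ((HTor.RΓA f).obj K)) := by
  obtain ⟨E, ⟨e⟩⟩ : ∃ E : CochainComplex X.Modules ℤ, Nonempty (DerivedCategory.Q.obj E ≅ K) :=
    ⟨_, ⟨DerivedCategory.Q.objObjPreimageIso K⟩⟩
  obtain ⟨I, s, hI, hs⟩ := (PerfC.RpushTrunc.hasKInj X).out E
  have e' : K ≅ DCoh.toD X I := e.symm ≪≫ asIso (DerivedCategory.Q.map s)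
  have h' : ∀ φ : P m (⊤ : X.Opens) ⟶ DCoh.toD X I, φ = 0 := fun φ => by
    have := h (φ ≫ e'.inv)
    rw [← cancel_mono e'.inv, this, zero_comp]
  have h2 := exactAt_globalSectionsA f I hI m h'
  rw [HomologicalComplex.exactAt_iff_isZero_homology] at h2
  exact h2.of_iso ((DerivedCategory.homologyFunctor (ModuleCat.{u} A) m).mapIso
    ((HTor.RΓA f).mapIso e' ≪≫ rgInj f I hI) ≪≫
      (DerivedCategory.homologyFunctorFactors (ModuleCat.{u} A) m).app _)

end RGamma

section Cover

variable {X : Scheme.{u}}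

/-- On a separated scheme, hypercohomology over an open covered by `N + 1` affines of `K ∈ D^{≤ a}` with
`H^m(U, K) = Γ(U, H^m(K))` on affines vanishes in degrees `> a + N`. -/
theorem eq_zero_of_cover [X.IsSeparated] (K : DCoh.D X) (hK : AffBij K) (a : ℤ) [K.IsLE a] (N : ℕ) :
    ∀ (U : Fin (N + 1) → X.Opens) (_ : ∀ i, IsAffineOpen (U i)) (W : X.Opens) (_ : ⨆ i, U i = W)
      (m : ℤ) (_ : a + N < m) (φ : P m W ⟶ K), φ = 0 := by
  induction N with
  | zero =>
    intro U hU W hW m hm φ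
    have hW' : IsAffineOpen W := by
      have h0 : ⨆ i, U i = U 0 := le_antisymm (iSup_le fun i => (congrArg U (Fin.ext (by lia))).le)
        (le_iSup U 0)
      rw [← hW, h0]
      exact hU _
    exact hK.eq_zero_of_isZero hW' φ (DerivedCategory.isZero_of_isLE K a m (by simpa using hm))
  | succ n ih =>
    intro U hU W hW m hm φ
    let W' : X.Opens := ⨆ i : Fin (n + 1), U i.castSucc
    let V : X.Opens := U (Fin.last (n + 1))
    have hWW : W' ⊔ V = W := by
      rw [← hW]
      apply le_antisymm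
      · exact sup_le (iSup_le fun i => le_iSup U _) (le_iSup U _)
      · refine iSup_le fun i => ?_
        induction i using Fin.lastCases with
        | last => exact le_sup_right
        | cast i => exact le_sup_of_le_left (le_iSup (fun i : Fin (n + 1) => U i.castSucc) i)
    subst hWW
    have hm' : a + n + 1 < m := by push_cast at hm; linarith
    obtain ⟨ψ, hψ⟩ := mv_exists_δ (n := m - 1) (by lia) φ
      (ih (fun i => U i.castSucc) (fun i => hU _) W' rfl m (by lia) _)
      (hK.eq_zero_of_isZero (hU (Fin.last (n + 1))) _ (DerivedCategory.isZero_of_isLE K a m (by lia)))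
    rw [hψ, ih (fun i => U i.castSucc ⊓ V) (fun i => (hU _).inf (hU _)) (W' ⊓ V)
      (by rw [← iSup_inf_eq]) (m - 1) (by lia) ψ, comp_zero]

end Cover

section Bound

variable {A : Type u} [CommRing A] {X : Scheme.{u}} (f : X ⟶ Spec (CommRingCat.of A))

/-- `RΓ(X, -)` sends `D_QCoh^{≤ a}` to `D^{≤ a + N}(A)` if `X` is separated and covered by `N + 1` affine opens. -/
theorem isLE_RΓA [IsSeparated f] [HTor.HasRΓA f] (N : ℕ) (U : Fin (N + 1) → X.Opens)
    (hU : ∀ i, IsAffineOpen (U i)) (hcov : ⨆ i, U i = ⊤) (K : DCoh.D X) (hK : DCoh.IsQCohD K) (a : ℤ)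
    (ha : K.IsLE a) : ((HTor.RΓA f).obj K).IsLE (a + N) := by
  have : X.IsSeparated := by
    rw [Scheme.isSeparated_iff, ← terminal.comp_from f]
    infer_instance
  rw [DerivedCategory.isLE_iff]
  intro m hm
  exact isZero_HD_of_forall f K m (eq_zero_of_cover K (PerfA.HypAdj.affBij hK) a N U hU ⊤ hcov m hm)

end Bound

section Free

variable {A : Type u} [CommRing A]

/-- Objects of `D^{≤ n}(A)` are represented by complexes of free modules vanishing above `n`. -/
theorem exists_free_rep (K : Dual.D A) (n : ℤ) (hK : K.IsLE n) :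
    ∃ L : DRing.Cx A, (∀ i : ℤ, Module.Free A (L.X i)) ∧ DRing.VanishesAbove L n ∧
      Nonempty (DRing.toD L ≅ K) := by
  obtain ⟨E, ⟨e⟩⟩ : ∃ E : DRing.Cx A, Nonempty (DerivedCategory.Q.obj E ≅ K) :=
    ⟨_, ⟨DerivedCategory.Q.objObjPreimageIso K⟩⟩
  have hE : ∀ m : ℤ, n < m → IsZero (E.homology m) := fun m hm =>
    ((DerivedCategory.isLE_iff K n).1 hK m hm).of_iso
      (((DerivedCategory.homologyFunctorFactors (ModuleCat.{u} A) m).app E).symm ≪≫
        (DerivedCategory.homologyFunctor (ModuleCat.{u} A) m).mapIso e)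
  obtain ⟨L, α, h1, h2, h3⟩ := CohtopB.LeftRes.exists_left_resolution'
    (fun M : ModuleCat.{u} A => Module.Free A M)
    ⟨ModuleCat.of A PUnit, ModuleCat.isZero_of_subsingleton _, inferInstance⟩
    (fun M => ⟨ModuleCat.of A (M →₀ A), ModuleCat.ofHom (Finsupp.linearCombination A id), inferInstance, by
      rw [ModuleCat.epi_iff_surjective]
      intro x
      exact ⟨Finsupp.single x 1, by simp⟩⟩) E n hE
  exact ⟨L, h2, fun i hi => L.isZero_of_isStrictlyLE n i hi, ⟨asIso (DerivedCategory.Q.map α) ≪≫ e⟩⟩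

end Free

end Groth.Agent.Htor.H246.RGammaBound
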